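import Mathlib
import Cfsg.Agent.Lib.Helper83.Idx2
import Cfsg.Agent.Lib.Helper49.HUP.Defs

/-!
# HUP (S3361): package [EXC] -- the exceptional orders 24, 48, 120, 528.
-/

set_option autoImplicit false

namespace Cfsg.Agent.Lib.Helper80.HUP

open Cfsg.Agent.Lib.Helper49.HUP

universe v

theorem hasIdx2N_of_hasIdx2_80 {X : Type v} [Group X]
    (h : Cfsg.Agent.Lib.Helper83.HasIdx2 X) : HasIdx2N X := by
  obtain ⟨N, hN⟩ := h
  exact ⟨N, Subgroup.normal_of_index_eq_two hN, hN⟩

theorem hasIdx2N_of_surjective80 {X Y : Type v} [Group X] [Group Y] (f : X →* Y)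
    (hf : Function.Surjective f) (h : HasIdx2N Y) : HasIdx2N X := by
  obtain ⟨N, hNn, hN⟩ := h
  exact ⟨N.comap f, hNn.comap f, by rw [Subgroup.index_comap_of_surjective _ hf, hN]⟩

theorem exc_arith80 (n idx c : ℕ) (hn1 : 1 ≤ n) (hidx : 4 * 2 ^ n * idx = c)
    (hodd : ¬ 2 ∣ idx) (hc : c = 24 ∨ c = 48 ∨ c = 120 ∨ c = 528) :
    (n = 1 ∧ (c = 24 ∨ c = 120)) ∨ (n = 2 ∧ (c = 48 ∨ c = 528)) := by
  have hn7 : n ≤ 7 := by
    by_contra hcon
    push Not at hcon
    have h1 : 2 ^ 8 ≤ 2 ^ n := Nat.pow_le_pow_right (by norm_num) hcon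
    have hpos : 0 < idx := by
      rcases Nat.eq_zero_or_pos idx with h | h
      · exact absurd (h ▸ dvd_zero 2) hodd
      · exact h
    have h2 : 4 * 2 ^ n ≤ c := by
      rw [← hidx]
      exact Nat.le_mul_of_pos_right _ hpos
    have h3 : (2 : ℕ) ^ 8 = 256 := by norm_num
    rw [h3] at h1
    generalize 2 ^ n = m at h1 h2
    rcases hc with h | h | h | h <;> omega
  interval_cases n <;> norm_num at hidx <;> rcases hc with h | h | h | h <;> omega

theorem pkgExc (hq : PkgOddQ.{v}) (hs : PkgSylQ.{v}) (h16 : PkgCore16.{v}) (h8 : PkgCore8.{v})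
    (h5 : PkgSplit5.{v}) : PkgExc.{v} := by
  intro G _ _ hsol hinv hcard
  have hsol' : Group.IsSolvable G := hsol
  have hfact : Fact (Nat.Prime 2) := ⟨Nat.prime_two⟩
  have heven : 2 ∣ Nat.card G := by
    rcases hcard with h | h | h | h <;> (rw [h]; norm_num)
  obtain ⟨P⟩ := (inferInstance : Nonempty (Sylow 2 G))
  rcases Cfsg.Agent.Lib.Helper83.sylow2_cyc_or_quat hinv P with hcyc | ⟨n, hn1, ⟨e⟩⟩
  · left
    exact hasIdx2N_of_hasIdx2_80 (Cfsg.Agent.Lib.Helper83.hasIdx2_of_hasNormalPComplement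
      (Cfsg.Agent.Lib.Helper83.hasNormalPComplement_of_cyclic P hcyc heven) heven)
  · have hne : NeZero (2 ^ n) := ⟨by positivity⟩
    have hPn : Nat.card (P : Subgroup G) = 4 * 2 ^ n := by
      rw [Nat.card_congr e.toEquiv, Nat.card_eq_fintype_card, QuaternionGroup.card]
    have hidx : Nat.card (P : Subgroup G) * (P : Subgroup G).index = Nat.card G :=
      (P : Subgroup G).card_mul_index
    have hoddi : ¬ 2 ∣ (P : Subgroup G).index := P.not_dvd_index
    rw [hPn] at hidx
    have harith := exc_arith80 n _ _ hn1 hidx hoddi hcard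
    obtain ⟨O, hOn, hOodd, hcf⟩ := hq (G := G)
    have hOn' : O.Normal := hOn
    obtain ⟨P', ⟨e'⟩⟩ := hs O hOodd P
    have hXsol : Group.IsSolvable (G ⧸ O) := inferInstance
    have hcardX : Nat.card O * Nat.card (G ⧸ O) = Nat.card G := by
      rw [← Subgroup.index_eq_card]
      exact O.card_mul_index
    have hpull : HasIdx2N (G ⧸ O) → HasIdx2N G :=
      hasIdx2N_of_surjective80 (QuotientGroup.mk' O) (QuotientGroup.mk'_surjective O)
    rcases harith with ⟨rfl, hc⟩ | ⟨rfl, hc⟩
    · have e2 : P' ≃* QuaternionGroup 2 := e'.symm.trans e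
      have hdvd120 : Nat.card (G ⧸ O) ∣ 120 := by
        have h1 : Nat.card (G ⧸ O) ∣ Nat.card G := Dvd.intro_left _ hcardX
        rcases hc with h | h
        · rw [h] at h1
          exact h1.trans (by norm_num)
        · rw [h] at h1
          exact h1
      rcases h8 hXsol hcf ⟨P', ⟨e2⟩⟩ hdvd120 with hX | ⟨hX24, ⟨eX⟩⟩
      · left
        exact hpull hX
      · rcases hc with h | h
        · right
          left
          refine ⟨h, ?_⟩
          have hO1 : Nat.card O = 1 := by
            rw [hX24, h] at hcardX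
            omega
          have hObot : O = ⊥ := Subgroup.eq_bot_of_card_eq O hO1
          have hinjm : Function.Injective (QuotientGroup.mk' O) := by
            rw [← MonoidHom.ker_eq_bot_iff, QuotientGroup.ker_mk', hObot]
          exact ⟨(MulEquiv.ofBijective (QuotientGroup.mk' O)
            ⟨hinjm, QuotientGroup.mk'_surjective O⟩).trans eX⟩
        · have hO5 : Nat.card O = 5 := by
            rw [hX24, h] at hcardX
            omega
          rcases h5 h O hO5 ⟨eX⟩ with h' | h'
          · left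
            exact h'
          · right
            right
            exact ⟨h, h'⟩
    · have e4 : P' ≃* QuaternionGroup 4 := e'.symm.trans e
      left
      exact hpull (h16 hXsol hcf ⟨P', ⟨e4⟩⟩)

end Cfsg.Agent.Lib.Helper80.HUP
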